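import Mathlib
import Cfsg.Prelude.Def_CaseTheorems
import Cfsg.Agent.BSW.DihedralEight
import Cfsg.Agent.BSW.Four
import Cfsg.Agent.PCore.Basic
import Cfsg.Agent.S0253

/-!
An involution with dihedral centraliser of order 8, and a subgroup of index 2.
-/

set_option autoImplicit false

namespace CfsgLib.BSW

open CfsgLib.Invol

universe u

/-- A faithful action on the cosets gives a symmetric group when the orders agree. -/
theorem iso_perm_of_core {G : Type u} [Group G] [Finite G] (L : Subgroup G) {k : ℕ} (hk : L.index = k)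
    (hG : Nat.card G = k.factorial) (hcore : L.normalCore = ⊥) : Nonempty (G ≃* Equiv.Perm (Fin k)) := by
  have hq : Nat.card (G ⧸ L) = k := (Subgroup.index_eq_card L).symm.trans hk
  obtain ⟨e⟩ : Nonempty ((G ⧸ L) ≃ Fin k) := ⟨(Finite.equivFin _).trans (finCongr hq)⟩
  refine ⟨(MulEquiv.ofBijective (MulAction.toPermHom G (G ⧸ L)) ((Nat.bijective_iff_injective_and_card _).2 ⟨?_, ?_⟩)).trans
    e.permCongrHom⟩
  · rw [← MonoidHom.ker_eq_bot_iff, ← Subgroup.normalCore_eq_ker, hcore]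
  · rw [hG, Nat.card_perm, hq]

/-- The case of a subgroup of index 2. -/
theorem dihedral_eight_index_two {G : Type u} [Group G] [Finite G] {z : G} (hz : orderOf z = 2)
    (e : Subgroup.centralizer ({z} : Set G) ≃* DihedralGroup 4) {H : Subgroup G} (hH : H.index = 2) :
    cz z ⊔ Cfsg.oddCore G = ⊤ ∨ Nonempty (G ≃* Equiv.Perm (Fin 4)) ∨ Nonempty (G ≃* Equiv.Perm (Fin 5)) := by
  classical
  haveI : Fact (Nat.Prime 2) := ⟨Nat.prime_two⟩
  haveI : Fact (Nat.Prime 3) := ⟨Nat.prime_three⟩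
  haveI : Fact (Nat.Prime 5) := ⟨by norm_num⟩
  haveI hHn : H.Normal := Subgroup.normal_of_index_eq_two hH
  have hz1 : z ≠ 1 := ne_one_of_orderOf hz
  have hzC : z ∈ cz z := mem_cz.2 rfl
  have hC8 : Nat.card ↥(cz z) = 8 := by rw [Nat.card_congr e.toEquiv, DihedralGroup.nat_card]
  obtain ⟨P, hP⟩ := dihedral_eight_sylow hz e
  have hcen : ∀ k ∈ cz z, k ≠ 1 → (∀ v ∈ cz z, k * v = v * k) → k = z := by
    have key : ∀ u : DihedralGroup 4, u ≠ 1 → (∀ v, u * v = v * u) → u = DihedralGroup.r 2 := by decide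
    have aux : ∀ k (hk : k ∈ cz z), k ≠ 1 → (∀ v ∈ cz z, k * v = v * k) → e ⟨k, hk⟩ = DihedralGroup.r 2 := by
      intro k hk hk1 hv
      refine key _ (fun h => hk1 (congrArg Subtype.val (e.injective (h.trans (map_one e).symm)))) fun v => ?_
      obtain ⟨w, rfl⟩ := e.surjective v
      rw [← map_mul, ← map_mul]
      exact congrArg e (Subtype.ext (hv w w.2))
    intro k hk hk1 hv
    exact congrArg Subtype.val (e.injective ((aux k hk hk1 hv).trans
      (aux z hzC hz1 fun v hv => (mem_cz.1 hv).symm).symm))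
  have hzH : z ∈ H := by
    obtain ⟨a, ha⟩ := e.surjective (DihedralGroup.r 1)
    have h1 : ((a * a : ↥(cz z)) : G) = z := by
      refine hcen _ (a * a).2 (fun h => ?_) fun v hv => ?_
      · have h2 := congrArg e (Subtype.ext h : a * a = 1)
        rw [map_mul, ha, map_one] at h2
        exact absurd h2 (by decide)
      · have h2 : a * a * ⟨v, hv⟩ = ⟨v, hv⟩ * (a * a) := e.injective (by
          rw [map_mul, map_mul e ⟨v, hv⟩, map_mul, ha]
          have : ∀ w : DihedralGroup 4, DihedralGroup.r 1 * DihedralGroup.r 1 * w =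
              w * (DihedralGroup.r 1 * DihedralGroup.r 1) := by decide
          exact this _)
        exact congrArg Subtype.val h2
    rw [← h1]
    exact Subgroup.mul_self_mem_of_index_two hH _
  obtain ⟨V, hVdef⟩ : ∃ V : Subgroup G, V = cz z ⊓ H := ⟨_, rfl⟩
  have hnC : ¬ cz z ≤ H := fun h => by
    have h1 := Subgroup.card_dvd_of_le h
    have h2 := Subgroup.card_mul_index H
    have h3 := P.not_dvd_index
    have h4 := Subgroup.card_mul_index (P : Subgroup G)
    rw [show Nat.card ↥(P : Subgroup G) = 8 by rw [hP]; exact hC8] at h4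
    rw [hH] at h2
    rw [hC8] at h1
    omega
  have hV4 : Nat.card ↥V = 4 := by
    have hri : H.relIndex (cz z) = 2 := by
      have hd : H.relIndex (cz z) ∣ 2 := hH ▸ Subgroup.relIndex_dvd_index_of_normal H (cz z)
      exact ((Nat.dvd_prime Nat.prime_two).1 hd).resolve_left fun h => hnC (Subgroup.relIndex_eq_one.1 h)
    have h1 := Subgroup.card_mul_index (H.subgroupOf (cz z))
    rw [show (H.subgroupOf (cz z)).index = 2 from hri, hC8] at h1
    have h2 : Nat.card ↥V = Nat.card ↥(H.subgroupOf (cz z)) := by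
      rw [hVdef, inf_comm, ← Subgroup.inf_subgroupOf_right,
        Nat.card_congr (Subgroup.subgroupOfEquivOfLe inf_le_right).toEquiv]
    omega
  obtain ⟨m, hm, hmodd⟩ : ∃ m, Nat.card ↥H = 4 * m ∧ ¬ 2 ∣ m := by
    refine ⟨(P : Subgroup G).index, ?_, P.not_dvd_index⟩
    have h2 := Subgroup.card_mul_index H
    have h4 := Subgroup.card_mul_index (P : Subgroup G)
    rw [show Nat.card ↥(P : Subgroup G) = 8 by rw [hP]; exact hC8] at h4
    rw [hH] at h2
    omega
  have hG2 : Nat.card G = 2 * Nat.card ↥H := by rw [← Subgroup.card_mul_index H, hH, mul_comm]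
  obtain ⟨zH, hzHdef⟩ : ∃ zH : ↥H, zH = ⟨z, hzH⟩ := ⟨_, rfl⟩
  have hzHo : orderOf zH = 2 := by rw [← Subgroup.orderOf_coe, hzHdef]; exact hz
  have hmem : ∀ v : ↥H, v ∈ cz zH ↔ (v : G) ∈ cz z := fun v => by
    rw [mem_cz, mem_cz, hzHdef]
    exact ⟨fun h => congrArg Subtype.val h, fun h => Subtype.ext h⟩
  have hmapV : (cz zH).map H.subtype = V := by
    ext v
    rw [hVdef, Subgroup.mem_map, Subgroup.mem_inf]
    exact ⟨fun ⟨w, hw, hwv⟩ => hwv ▸ ⟨(hmem w).1 hw, w.2⟩, fun ⟨h1, h2⟩ => ⟨⟨v, h2⟩, (hmem _).2 h1, rfl⟩⟩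
  have hC4 : Nat.card ↥(cz zH) = 4 := by
    rw [← hV4, ← hmapV]
    exact Nat.card_congr (Subgroup.equivMapOfInjective _ _ H.subtype_injective).toEquiv
  obtain ⟨S, hS⟩ : ∃ S : Sylow 2 ↥H, cz zH = (S : Subgroup ↥H) := by
    obtain ⟨S, hS⟩ := (IsPGroup.of_card (n := 2) (by rw [hC4]; norm_num) : IsPGroup 2 ↥(cz zH)).exists_le_sylow
    refine ⟨S, Subgroup.eq_of_le_of_card_ge hS ?_⟩
    obtain ⟨j, hj⟩ := IsPGroup.iff_card.1 S.isPGroup'
    have h1 := Subgroup.card_subgroup_dvd_card (S : Subgroup ↥H)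
    rw [hj, hm] at h1
    rw [hj, hC4]
    have h5 : 2 ^ j ∣ 4 := ((Nat.prime_two.coprime_iff_not_dvd.2 hmodd).pow_left j).dvd_of_dvd_mul_right h1
    exact Nat.le_of_dvd (by norm_num) h5
  -- a normal 2-complement of `H` gives the first case
  have hcomp : Cfsg.HasNormalPComplement 2 ↥H → cz z ⊔ Cfsg.oddCore G = ⊤ := by
    rintro ⟨T, N, hN, hNT⟩
    have hTc : Nat.card ↥(T : Subgroup ↥H) = 4 := by
      rw [← hC4, Nat.card_congr (Sylow.equiv T S).toEquiv, hS]
    have hNm : Nat.card ↥N = m := by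
      have := hNT.card_mul_card
      rw [hTc, hm] at this
      omega
    have hNi : N.index = 4 := by rw [hNT.symm.index_eq_card, hTc]
    obtain ⟨M, hMdef⟩ : ∃ M : Subgroup G, M = N.map H.subtype := ⟨_, rfl⟩
    have hMc : Nat.card ↥M = m := by
      rw [← hNm, hMdef]
      exact (Nat.card_congr (Subgroup.equivMapOfInjective _ _ H.subtype_injective).toEquiv).symm
    have hmem' : ∀ x : ↥H, Odd (orderOf x) → x ∈ N := by
      intro x hx
      refine (QuotientGroup.eq_one_iff x).1 (orderOf_eq_one_iff.1 (Nat.eq_one_of_dvd_coprimes (a := orderOf x) (b := 2 ^ 2)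
        (Nat.Coprime.pow_right _ (Nat.coprime_two_right.2 hx)) (orderOf_map_dvd (QuotientGroup.mk' N) x) ?_))
      rw [show 2 ^ 2 = N.index from hNi.symm, Subgroup.index_eq_card]
      exact orderOf_dvd_natCard _
    have hMn : M.Normal := by
      refine ⟨fun x hx g => ?_⟩
      rw [hMdef] at hx ⊢
      obtain ⟨w, hw, rfl⟩ := hx
      refine ⟨⟨g * (w : G) * g⁻¹, hHn.conj_mem _ w.2 g⟩, hmem' _ ?_, rfl⟩
      rw [← Subgroup.orderOf_coe]
      show Odd (orderOf (g * (w : G) * g⁻¹))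
      rw [Invol.orderOf_conj, Subgroup.orderOf_coe]
      refine Odd.of_dvd_nat ?_ (Subgroup.orderOf_dvd_natCard N hw)
      rw [hNm, Nat.odd_iff]; omega
    have hMle : M ≤ Cfsg.oddCore G := CfsgLib.PCore.le_pPrimeCore hMn (by
      rw [hMc]; exact (Nat.prime_two.coprime_iff_not_dvd.2 hmodd).symm)
    refine eq_top_iff.2 (le_trans ?_ (sup_le_sup_left hMle _))
    refine (Subgroup.eq_top_of_le_card _ ?_).ge
    refine Nat.le_of_dvd Nat.card_pos ?_
    rw [hG2, hm, show 2 * (4 * m) = 8 * m by ring]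
    refine ((Nat.prime_two.coprime_iff_not_dvd.2 hmodd).pow_left 3).mul_dvd_of_dvd_of_dvd ?_ ?_
    · rw [show (2 : ℕ) ^ 3 = 8 from rfl, ← hC8]; exact Subgroup.card_dvd_of_le le_sup_left
    · rw [← hMc]; exact Subgroup.card_dvd_of_le le_sup_right
  -- kernels of actions
  have hsmall : ∀ K : Subgroup G, K.Normal → K ⊓ H = ⊥ → K = ⊥ := by
    intro K hK hKH
    rw [Subgroup.eq_bot_iff_forall] at hKH ⊢
    intro k hk
    by_contra hk1
    have hkC : ∀ g : G, g * k * g⁻¹ = k := fun g => by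
      have hnot : ∀ v ∈ K, v ≠ 1 → v ∉ H := fun v hv hv1 hvH => hv1 (hKH v ⟨hv, hvH⟩)
      have h1 : g * k * g⁻¹ ∈ K := hK.conj_mem k hk g
      have h2 : g * k * g⁻¹ * k⁻¹ ∈ K ⊓ H := by
        refine Subgroup.mem_inf.2 ⟨mul_mem h1 (inv_mem hk), ?_⟩
        rw [Subgroup.mul_mem_iff_of_index_two hH]
        exact iff_of_false (hnot _ h1 fun h => hk1 (conj_eq_one_iff.1 h))
          (fun h => hnot k hk hk1 (inv_mem_iff.1 h))
      exact mul_inv_eq_one.1 (hKH _ h2)
    have hkcz : k ∈ cz z := mem_cz.2 ((mul_inv_eq_iff_eq_mul.1 (hkC z)).symm)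
    exact hk1 (hKH k ⟨hk, (hcen k hkcz hk1 fun v _ => (mul_inv_eq_iff_eq_mul.1 (hkC v)).symm) ▸ hzH⟩)
  by_cases hexp : ∀ c ∈ cz zH, c * c = 1
  swap
  · -- cyclic
    push Not at hexp
    obtain ⟨c, hc, hc2⟩ := hexp
    left
    refine hcomp ?_
    have hco : orderOf c = 4 := by
      have h1 : orderOf c ∣ 2 ^ 2 := by
        rw [show 2 ^ 2 = 4 from rfl, ← hC4]; exact Subgroup.orderOf_dvd_natCard _ hc
      obtain ⟨j, hj, hjo⟩ := (Nat.dvd_prime_pow Nat.prime_two).1 h1
      have : j = 2 := by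
        by_contra hne
        refine hc2 ?_
        rw [← pow_two, ← orderOf_dvd_iff_pow_eq_one, hjo]
        interval_cases j <;> norm_num at *
      rw [hjo, this]; rfl
    have hcyc : IsCyclic ↥(S : Subgroup ↥H) := by
      have hcS : c ∈ (S : Subgroup ↥H) := hS ▸ hc
      refine isCyclic_of_orderOf_eq_card ⟨c, hcS⟩ ?_
      rw [Subgroup.orderOf_mk, hco, ← hC4, hS]
    have hmin : (Nat.card ↥H).minFac = 2 := by
      rw [Nat.minFac_eq_two_iff, hm]; exact ⟨2 * m, by ring⟩
    have hle : Subgroup.normalizer ((S : Subgroup ↥H) : Set ↥H) ≤ Subgroup.centralizer ((S : Subgroup ↥H) : Set ↥H) :=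
      IsCyclic.normalizer_le_centralizer hmin hcyc
    exact ⟨S, _, inferInstance, MonoidHom.ker_transferSylow_isComplement' S hle⟩
  rcases four_sylow_cases hzHo hC4 hexp hS with h | ⟨hstr, hcard, hN12⟩
  · exact Or.inl (hcomp h)
  rcases hcard with hcard | hcard
  · -- order 24
    refine Or.inr (Or.inl ?_)
    obtain ⟨Q, D, hQG, -, -, hQD, -, hNQ, -⟩ := hstr
    have hQ3 : Nat.card ↥Q = 3 := by
      rw [hcard] at hQG
      rw [← hQD, show 2 * Nat.card ↥D + 1 - 1 = 2 * Nat.card ↥D by omega] at hQG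
      rw [← hQD]
      have hD0 := Nat.card_pos (α := ↥D)
      rcases (show Nat.card ↥D = 1 ∨ 2 ≤ Nat.card ↥D by omega) with h | h
      · omega
      · have h5 : 5 * 6 * 4 ≤ (2 * Nat.card ↥D + 1) * (2 * Nat.card ↥D + 1 + 1) * (2 * Nat.card ↥D) :=
          Nat.mul_le_mul (Nat.mul_le_mul (by omega) (by omega)) (by omega)
        omega
    have hD1 : D = ⊥ := Subgroup.eq_bot_of_card_eq _ (by omega)
    rw [hD1, sup_bot_eq] at hNQ
    have hQn : ¬ Q.Normal := fun h => by
      rw [Subgroup.normalizer_eq_top_iff.2 h] at hNQ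
      rw [← hNQ, Subgroup.card_top, hcard] at hQ3
      omega
    obtain ⟨Qm, hQm⟩ : ∃ Qm : Subgroup G, Qm = Q.map H.subtype := ⟨_, rfl⟩
    have hQmc : Nat.card ↥Qm = 3 := by
      rw [← hQ3, hQm]
      exact (Nat.card_congr (Subgroup.equivMapOfInjective _ _ H.subtype_injective).toEquiv).symm
    have hnorm : ∀ v : ↥H, (v : G) ∈ Subgroup.normalizer (Qm : Set G) → v ∈ Q := by
      intro v hv
      rw [← hNQ]
      refine Subgroup.mem_normalizer_iff.2 fun w => ?_
      have hw : ∀ w : ↥H, (w : G) ∈ Qm ↔ w ∈ Q := fun w => hQm ▸ Subgroup.mem_map_iff_mem H.subtype_injective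
      rw [← hw, ← hw]
      exact Subgroup.mem_normalizer_iff.1 hv w
    obtain ⟨T, hT⟩ := (IsPGroup.of_card (n := 1) (hQmc.trans (pow_one 3).symm) : IsPGroup 3 ↥Qm).exists_le_sylow
    have hTQ : Qm = (T : Subgroup G) := by
      refine Subgroup.eq_of_le_of_card_ge hT ?_
      obtain ⟨j, hj⟩ := IsPGroup.iff_card.1 T.isPGroup'
      have h1 := Subgroup.card_subgroup_dvd_card (T : Subgroup G)
      rw [hj, hG2, hcard] at h1
      rw [hj, hQmc]
      rcases j with _ | _ | j
      · norm_num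
      · norm_num
      · exfalso
        have := (pow_dvd_pow 3 (show 2 ≤ j + 1 + 1 by omega)).trans h1
        norm_num at this
    have hidx : (Subgroup.normalizer (Qm : Set G)).index = 4 := by
      have h1 : Nat.card (Sylow 3 G) = (Subgroup.normalizer (Qm : Set G)).index := by
        rw [hTQ]; exact T.card_eq_index_normalizer
      have h2 : Nat.card (Sylow 3 G) ∣ 8 := by
        have h := T.card_dvd_index
        have h4 := Subgroup.card_mul_index (T : Subgroup G)
        rw [← hTQ, hQmc, hG2, hcard] at h4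
        rw [← hTQ] at h
        rwa [show Qm.index = 8 by omega] at h
      have h3 : Nat.card (Sylow 3 G) ≡ 1 [MOD 3] := card_sylow_modEq_one 3 G
      rw [h1] at h2 h3
      have h5 : (Subgroup.normalizer (Qm : Set G)).index ≠ 1 := fun h => hQn ⟨fun q hq g => by
        have hg : (g : G) ∈ Subgroup.normalizer (Qm : Set G) := by
          rw [Subgroup.index_eq_one.1 h]; trivial
        exact mul_mem (mul_mem (hnorm g hg) hq) (inv_mem (hnorm g hg))⟩
      obtain ⟨j, hj, hjo⟩ := (Nat.dvd_prime_pow Nat.prime_two).1 (show _ ∣ 2 ^ 3 from h2)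
      rw [hjo] at h3 h5 ⊢
      interval_cases j <;> simp [Nat.ModEq] at h3 h5 ⊢
    refine iso_perm_of_core _ hidx (by rw [hG2, hcard]; rfl) (hsmall _ inferInstance ?_)
    obtain ⟨R, hR⟩ : ∃ R : Subgroup ↥H, R = (Subgroup.normalizer (Qm : Set G)).normalCore.subgroupOf H := ⟨_, rfl⟩
    have hRQ : R ≤ Q := fun v hv => hnorm v (Subgroup.normalCore_le _ (Subgroup.mem_subgroupOf.1 (hR ▸ hv)))
    have hRb : R = ⊥ := by
      rcases (Nat.dvd_prime Nat.prime_three).1 (hQ3 ▸ Subgroup.card_dvd_of_le hRQ) with h | h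
      · exact Subgroup.eq_bot_of_card_eq _ h
      · refine absurd ?_ hQn
        rw [← Subgroup.eq_of_le_of_card_ge hRQ (by rw [h, hQ3]), hR]
        exact inferInstance
    rw [Subgroup.eq_bot_iff_forall]
    rintro v ⟨hv1, hv2⟩
    have : (⟨v, hv2⟩ : ↥H) ∈ R := hR ▸ Subgroup.mem_subgroupOf.2 hv1
    rw [hRb, Subgroup.mem_bot] at this
    exact congrArg Subtype.val this
  · -- order 120
    refine Or.inr (Or.inr ?_)
    obtain ⟨e1⟩ := hstr.nonempty_iso (F := ZMod 5) (by rw [hcard, ZMod.card])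
    obtain ⟨e2⟩ := Cfsg.Agent.S0253.result (F := ZMod 5) (ZMod.card 5)
    haveI : IsSimpleGroup ↥(alternatingGroup (Fin 5)) := alternatingGroup.isSimpleGroup_five
    haveI hsimp : IsSimpleGroup ↥H := (e1.trans e2).isSimpleGroup
    obtain ⟨L, hLdef⟩ : ∃ L : Subgroup G, L = Subgroup.normalizer (V : Set G) := ⟨_, rfl⟩
    obtain ⟨NV, hNV⟩ : ∃ NV : Subgroup ↥H, NV = Subgroup.normalizer ((cz zH : Subgroup ↥H) : Set ↥H) := ⟨_, rfl⟩
    rw [← hNV] at hN12
    have hNH : L.subgroupOf H = NV := by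
      ext v
      rw [Subgroup.mem_subgroupOf, hLdef, hNV, Subgroup.mem_normalizer_iff, Subgroup.mem_normalizer_iff]
      refine ⟨fun h w => ?_, fun h w => ?_⟩
      · have hw : ∀ w : ↥H, (w : G) ∈ V ↔ w ∈ cz zH := fun w =>
          hmapV ▸ Subgroup.mem_map_iff_mem H.subtype_injective
        rw [← hw, ← hw]
        exact h w
      · have hw : ∀ w : ↥H, (w : G) ∈ V ↔ w ∈ cz zH := fun w =>
          hmapV ▸ Subgroup.mem_map_iff_mem H.subtype_injective
        by_cases hwH : w ∈ H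
        · rw [hw ⟨w, hwH⟩, h]
          exact (hw _).symm
        · have h1 : ∀ y ∈ V, y ∈ H := fun y hy => (hVdef ▸ hy : y ∈ cz z ⊓ H).2
          refine iff_of_false (fun hV => hwH (h1 _ hV)) fun hV => hwH ?_
          have := hHn.conj_mem _ (h1 _ hV) (v : G)⁻¹
          simpa [mul_assoc] using this
    have hLi : L.index = 5 := by
      have hCL : cz z ≤ L := by
        intro c hc
        rw [hLdef, hVdef]
        exact Subgroup.inf_normalizer_le_normalizer_inf ⟨Subgroup.le_normalizer hc,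
          by rw [Subgroup.normalizer_eq_top_iff.2 hHn]; trivial⟩
      have h1 : 8 ∣ Nat.card ↥L := hC8 ▸ Subgroup.card_dvd_of_le hCL
      have h2 : 12 ∣ Nat.card ↥L := by
        rw [← hN12, ← hNH, ← Subgroup.inf_subgroupOf_right,
          Nat.card_congr (Subgroup.subgroupOfEquivOfLe inf_le_right).toEquiv]
        exact Subgroup.card_dvd_of_le inf_le_left
      have h3 : Nat.card ↥L ≤ 24 := by
        have h4 := Subgroup.card_mul_index (H.subgroupOf L)
        have h5 : (H.subgroupOf L).index ∣ 2 := hH ▸ Subgroup.relIndex_dvd_index_of_normal H L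
        have h6 : Nat.card ↥(H.subgroupOf L) = 12 := by
          rw [← hN12, ← hNH, ← Subgroup.inf_subgroupOf_right H L, ← Subgroup.inf_subgroupOf_right L H,
            Nat.card_congr (Subgroup.subgroupOfEquivOfLe inf_le_right).toEquiv,
            Nat.card_congr (Subgroup.subgroupOfEquivOfLe inf_le_right).toEquiv, inf_comm]
        rw [h6] at h4
        have := Nat.le_of_dvd (by norm_num) h5
        omega
      have h7 := Subgroup.card_mul_index L
      rw [hG2, hcard] at h7
      have h8 : 24 ∣ Nat.card ↥L := Nat.lcm_dvd h1 h2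
      obtain ⟨j, hj⟩ := h8
      have hp := Nat.card_pos (α := ↥L)
      have : Nat.card ↥L = 24 := by omega
      rw [this] at h7
      omega
    refine iso_perm_of_core L hLi (by rw [hG2, hcard]; rfl) (hsmall _ inferInstance ?_)
    rcases (inferInstance : (L.normalCore.subgroupOf H).Normal).eq_bot_or_eq_top with h | h
    · rw [Subgroup.eq_bot_iff_forall]
      rintro v ⟨hv1, hv2⟩
      have : (⟨v, hv2⟩ : ↥H) ∈ L.normalCore.subgroupOf H := Subgroup.mem_subgroupOf.2 hv1
      rw [h, Subgroup.mem_bot] at this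
      exact congrArg Subtype.val this
    · exfalso
      have hle : (⊤ : Subgroup ↥H) ≤ L.subgroupOf H := h ▸ fun v hv => L.normalCore_le hv
      rw [hNH, top_le_iff] at hle
      rw [hle, Subgroup.card_top, hcard] at hN12
      omega

end CfsgLib.BSW
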