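import Mathlib
import Cfsg.Agent.BSW.Four
import Cfsg.Agent.ZStar.Main
import Cfsg.Agent.PCore.Basic

/-!
An involution whose centraliser contains at most three involutions.
-/

set_option autoImplicit false

namespace CfsgLib.BSW

open CfsgLib.Invol

universe u

variable {G : Type u} [Group G] [Finite G]

/-- In a nonabelian simple group no involution is alone in its class in a Sylow 2-subgroup. -/
theorem exists_fused [IsSimpleGroup G] (hna : ∃ a b : G, a * b ≠ b * a) (P : Sylow 2 G) {v : G} (hv : orderOf v = 2)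
    (hvP : v ∈ (P : Subgroup G)) : ∃ g : G, g * v * g⁻¹ ∈ (P : Subgroup G) ∧ g * v * g⁻¹ ≠ v := by
  haveI : Fact (Nat.Prime 2) := ⟨Nat.prime_two⟩
  by_contra hcon
  push Not at hcon
  have hiso := CfsgLib.ZStar.isolated_of_sylow P hv hvP hcon
  have hcore : Cfsg.pPrimeCore 2 G = ⊥ := by
    haveI := CfsgLib.PCore.pPrimeCore_characteristic 2 G
    rcases (inferInstance : (Cfsg.pPrimeCore 2 G).Normal).eq_bot_or_eq_top with h | h
    · exact h
    · exfalso
      have h2 := CfsgLib.PCore.not_dvd_card_pPrimeCore 2 G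
      rw [h, Subgroup.card_top, ← hv] at h2
      exact h2 (orderOf_dvd_natCard v)
  have hcen : v ∈ Subgroup.center G := Subgroup.mem_center_iff.2 fun g => by
    have h := CfsgLib.ZStar.zstar hiso g
    rw [hcore, Subgroup.mem_bot, mul_inv_eq_one, mul_inv_eq_iff_eq_mul] at h
    exact h.symm
  rcases (inferInstance : (Subgroup.center G).Normal).eq_bot_or_eq_top with h | h
  · rw [h, Subgroup.mem_bot] at hcen; exact ne_one_of_orderOf hv hcen
  · obtain ⟨a, b, hab⟩ := hna
    exact hab (Subgroup.mem_center_iff.1 (h.ge (Subgroup.mem_top b)) a)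

/-- Three involutions exhaust the involutions of the centraliser. -/
theorem invol_cases {x : G} (h3 : Nat.card {u : ↥(cz x) // orderOf u = 2} ≤ 3) {a b c : G} (ha : a ∈ cz x)
    (hb : b ∈ cz x) (hc : c ∈ cz x) (ha2 : orderOf a = 2) (hb2 : orderOf b = 2) (hc2 : orderOf c = 2)
    (hab : a ≠ b) (hac : a ≠ c) (hbc : b ≠ c) {w : G} (hw : w ∈ cz x) (hw2 : orderOf w = 2) :
    w = a ∨ w = b ∨ w = c := by
  classical
  by_contra hne
  push Not at hne
  let f : Fin 4 → {u : ↥(cz x) // orderOf u = 2} :=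
    ![⟨⟨a, ha⟩, by rw [Subgroup.orderOf_mk, ha2]⟩, ⟨⟨b, hb⟩, by rw [Subgroup.orderOf_mk, hb2]⟩,
      ⟨⟨c, hc⟩, by rw [Subgroup.orderOf_mk, hc2]⟩, ⟨⟨w, hw⟩, by rw [Subgroup.orderOf_mk, hw2]⟩]
  have hf : Function.Injective f := by
    intro i j h
    fin_cases i <;> fin_cases j <;> simp [f, Subtype.ext_iff, hab, hac, hbc, Ne.symm hab, Ne.symm hac, Ne.symm hbc,
      hne.1, hne.2.1, hne.2.2, Ne.symm hne.1, Ne.symm hne.2.1, Ne.symm hne.2.2] at h ⊢
  have := Nat.card_le_card_of_injective f hf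
  rw [Nat.card_fin] at this
  omega

theorem mul_invol {a b : G} (ha : orderOf a = 2) (hb : orderOf b = 2) (hab : a ≠ b) (hc : Commute a b) :
    orderOf (a * b) = 2 := by
  refine orderOf_eq_two ?_ fun h => hab ?_
  · calc a * b * (a * b) = a * (b * a) * b := by group
      _ = (a * a) * (b * b) := by rw [← hc.eq]; group
      _ = 1 := by rw [mul_self_of_orderOf ha, mul_self_of_orderOf hb, one_mul]
  · exact mul_left_cancel ((mul_self_of_orderOf ha).trans h.symm)

theorem three_invol [IsSimpleGroup G] (hna : ∃ a b : G, a * b ≠ b * a) {x : G} (hx : orderOf x = 2)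
    (h3 : Nat.card {u : ↥(cz x) // orderOf u = 2} ≤ 3) :
    (∃ S : Sylow 2 G, (S : Subgroup G) ≤ cz x) ∧ ∀ u v : G, orderOf u = 2 → orderOf v = 2 → IsConj u v := by
  classical
  haveI : Fact (Nat.Prime 2) := ⟨Nat.prime_two⟩
  have hx1 := ne_one_of_orderOf hx
  have hxC : x ∈ cz x := mem_cz.2 rfl
  have part1 : ∃ S : Sylow 2 G, (S : Subgroup G) ≤ cz x := by
    obtain ⟨T, hT⟩ := (IsPGroup.of_card (n := 1) (by rw [Nat.card_zpowers, hx, pow_one]) :
      IsPGroup 2 ↥(Subgroup.zpowers x)).exists_le_sylow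
    have hxT : x ∈ (T : Subgroup G) := hT (Subgroup.mem_zpowers x)
    by_cases hTC : (T : Subgroup G) ≤ cz x
    · exact ⟨T, hTC⟩
    have hTb : (T : Subgroup G) ≠ ⊥ := fun h => hx1 (by rwa [h, Subgroup.mem_bot] at hxT)
    obtain ⟨z₀, hz₀, hz₀1, hTz₀⟩ := exists_central T.isPGroup' hTb
    obtain ⟨z, hzT, hz, hTz⟩ : ∃ z ∈ (T : Subgroup G), orderOf z = 2 ∧ (T : Subgroup G) ≤ cz z := by
      obtain ⟨k, hk⟩ := T.isPGroup' ⟨z₀, hz₀⟩
      obtain ⟨j, hj, hjo⟩ := (Nat.dvd_prime_pow Nat.prime_two).1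
        (orderOf_dvd_of_pow_eq_one (congrArg Subtype.val hk) : orderOf z₀ ∣ 2 ^ k)
      rcases j with _ | j
      · exact absurd (orderOf_eq_one_iff.1 (by simpa using hjo)) hz₀1
      refine ⟨z₀ ^ 2 ^ j, pow_mem hz₀ _, ?_, fun y hy => ?_⟩
      · have h := orderOf_pow_orderOf_div (orderOf_pos z₀).ne'
          (show 2 ∣ orderOf z₀ by rw [hjo]; exact ⟨2 ^ j, pow_succ' 2 j⟩)
        rwa [hjo, pow_succ, Nat.mul_div_cancel _ two_pos] at h
      · exact mem_cz.2 (Commute.pow_right (show Commute y z₀ from mem_cz.1 (hTz₀ hy)) _).eq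
    by_cases hconj : IsConj x z
    · obtain ⟨c, hc⟩ := isConj_iff.1 hconj.symm
      refine ⟨c • T, fun y hy => ?_⟩
      obtain ⟨w, hw, rfl⟩ : y ∈ (T : Subgroup G).map (MulAut.conj c).toMonoidHom := hy
      show c * w * c⁻¹ ∈ cz x
      rw [← hc]
      exact (cz_conj c).2 (hTz hw)
    exfalso
    have hxz : x ≠ z := fun h => hconj (h ▸ IsConj.refl x)
    have hcom : Commute x z := mem_cz.1 (hTz hxT)
    have hzC : z ∈ cz x := mem_cz.2 hcom.eq.symm
    have hxzo := mul_invol hx hz hxz hcom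
    have hxz1 : x ≠ x * z := fun h => ne_one_of_orderOf hz (left_eq_mul.1 h)
    have hxz2 : z ≠ x * z := fun h => hx1 (right_eq_mul.1 h)
    have hel : ∀ w, w ∈ cz x → orderOf w = 2 → w = x ∨ w = z ∨ w = x * z := fun w hw hw2 =>
      invol_cases h3 hxC hzC (mul_mem hxC hzC) hx hz hxzo hxz hxz1 hxz2 hw hw2
    obtain ⟨y, hyT, hyC, hyx⟩ : ∃ y ∈ (T : Subgroup G), y ∉ cz x ∧ y * x * y⁻¹ ∈ cz x := by
      have hlt : (cz x).subgroupOf (T : Subgroup G) < ⊤ :=
        lt_of_le_of_ne le_top fun h => hTC (Subgroup.subgroupOf_eq_top.1 h)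
      haveI := T.isPGroup'.isNilpotent
      obtain ⟨y, hy, hy'⟩ := SetLike.exists_of_lt (Group.normalizerCondition_of_isNilpotent _ hlt)
      exact ⟨y, y.2, fun h => hy' h, (Subgroup.mem_normalizer_iff.1 hy ⟨x, hxT⟩).1 hxC⟩
    have hyz : y * z * y⁻¹ = z := by rw [mem_cz.1 (hTz hyT), mul_inv_cancel_right]
    have hy2 : y * x * y⁻¹ = x * z := by
      rcases hel _ hyx (by rw [Invol.orderOf_conj, hx]) with h | h | h
      · exact absurd (mem_cz.2 (mul_inv_eq_iff_eq_mul.1 h)) hyC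
      · exact absurd (mul_left_cancel (mul_right_cancel (h.trans hyz.symm))) hxz
      · exact h
    have hnc' : ¬ IsConj (x * z) z := fun h => hconj ((isConj_iff.2 ⟨y, hy2⟩).trans h)
    have key : ∀ w, IsConj z w → Commute z w := by
      intro w hw
      have hwo : orderOf w = 2 := by
        obtain ⟨c, rfl⟩ := isConj_iff.1 hw
        rw [Invol.orderOf_conj, hz]
      obtain ⟨v, hv, hvx, hvw⟩ := exists_commuting_involution hx hwo fun h => hconj (h.trans hw.symm)
      rcases hel v (mem_cz.2 hvx.eq) hv with rfl | rfl | rfl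
      · rcases hel w (mem_cz.2 hvw.symm.eq) hwo with h | h | h
        · exact absurd (h ▸ hw.symm) hconj
        · rw [h]
        · exact absurd (h ▸ hw.symm) hnc'
      · exact hvw
      · have hwC : y⁻¹ * w * y ∈ cz x := by
          have h := (cz_conj (g := x * z) (x := w) y⁻¹).2 (mem_cz.2 hvw.symm.eq)
          rwa [inv_inv, show y⁻¹ * (x * z) * y = x by rw [← hy2]; group] at h
        have hwi : IsConj z (y⁻¹ * w * y) := hw.trans (isConj_iff.2 ⟨y⁻¹, by rw [inv_inv]⟩)
        have hwio : orderOf (y⁻¹ * w * y) = 2 := by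
          rw [show y⁻¹ * w * y = y⁻¹ * w * y⁻¹⁻¹ by group, Invol.orderOf_conj, hwo]
        rcases hel _ hwC hwio with h | h | h
        · rw [h] at hwi; exact absurd hwi.symm hconj
        · rw [show w = y * (y⁻¹ * w * y) * y⁻¹ by group, h, hyz]
        · rw [h] at hwi; exact absurd hwi.symm hnc'
    obtain ⟨A, hA⟩ : ∃ A : Subgroup G, A = Subgroup.closure {w | IsConj z w} := ⟨_, rfl⟩
    have hAc : IsMulCommutative ↥A := hA ▸ Subgroup.isMulCommutative_closure (k := {w | IsConj z w}) (by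
      intro a ha b hb
      obtain ⟨c, rfl⟩ := isConj_iff.1 (ha : IsConj z a)
      have h := key (c⁻¹ * b * c) (IsConj.trans hb (isConj_iff.2 ⟨c⁻¹, by rw [inv_inv]⟩))
      calc c * z * c⁻¹ * b = c * (z * (c⁻¹ * b * c)) * c⁻¹ := by group
        _ = c * (c⁻¹ * b * c * z) * c⁻¹ := by rw [h.eq]
        _ = _ := by group)
    have hAn : A.Normal := by
      refine ⟨fun a ha g => ?_⟩
      rw [hA] at ha ⊢
      induction ha using Subgroup.closure_induction with
      | mem w hw => exact Subgroup.subset_closure (IsConj.trans hw (isConj_iff.2 ⟨g, rfl⟩))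
      | one => simp
      | mul p q _ _ ihp ihq => simpa [mul_assoc] using mul_mem ihp ihq
      | inv p _ ih => simpa [mul_assoc] using inv_mem ih
    have hzA : z ∈ A := hA ▸ Subgroup.subset_closure (IsConj.refl z : IsConj z z)
    rcases hAn.eq_bot_or_eq_top with h | h
    · rw [h, Subgroup.mem_bot] at hzA; exact ne_one_of_orderOf hz hzA
    · obtain ⟨a, b, hab⟩ := hna
      exact hab (congrArg Subtype.val (hAc.is_comm.comm (⟨a, h.ge (Subgroup.mem_top a)⟩ : ↥A) ⟨b, h.ge (Subgroup.mem_top b)⟩))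
  refine ⟨part1, ?_⟩
  obtain ⟨S, hS⟩ := part1
  have hxS : x ∈ (S : Subgroup G) := by
    have hle : Subgroup.zpowers x ≤ Subgroup.normalizer ((S : Subgroup G) : Set G) := by
      refine Subgroup.zpowers_le.2 (Subgroup.mem_normalizer_iff.2 fun w => ⟨fun hw => ?_, fun hw => ?_⟩)
      · rw [← mem_cz.1 (hS hw), mul_inv_cancel_right]; exact hw
      · have h : x * (x * w * x⁻¹) * x⁻¹ = w := by
          rw [show x * (x * w * x⁻¹) * x⁻¹ = (x * x) * w * (x * x)⁻¹ by group, mul_self_of_orderOf hx]; group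
        rw [← h, ← mem_cz.1 (hS hw), mul_inv_cancel_right]; exact hw
    have hsup : IsPGroup 2 ↥((S : Subgroup G) ⊔ Subgroup.zpowers x : Subgroup G) :=
      S.isPGroup'.to_sup_of_normal_left' (IsPGroup.of_card (n := 1) (by rw [Nat.card_zpowers, hx, pow_one])) hle
    exact (S.is_maximal' hsup le_sup_left).le (Subgroup.mem_sup_right (Subgroup.mem_zpowers x))
  obtain ⟨g, hgS, hgx⟩ := exists_fused hna S hx hxS
  obtain ⟨w, hw⟩ : ∃ w, w = g * x * g⁻¹ := ⟨_, rfl⟩
  rw [← hw] at hgS hgx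
  have hwo : orderOf w = 2 := by rw [hw, Invol.orderOf_conj, hx]
  have hcom : Commute x w := (mem_cz.1 (hS hgS)).symm
  have hxwo := mul_invol hx hwo (Ne.symm hgx) hcom
  have hd1 : x ≠ x * w := fun h => ne_one_of_orderOf hwo (left_eq_mul.1 h)
  have hd2 : w ≠ x * w := fun h => hx1 (right_eq_mul.1 h)
  have hel : ∀ v, v ∈ (S : Subgroup G) → orderOf v = 2 → v = x ∨ v = w ∨ v = x * w := fun v hv hv2 =>
    invol_cases h3 hxC (hS hgS) (mul_mem hxC (hS hgS)) hx hwo hxwo (Ne.symm hgx) hd1 hd2 (hS hv) hv2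
  have hxw : IsConj x w := isConj_iff.2 ⟨g, hw.symm⟩
  have hxxw : IsConj x (x * w) := by
    obtain ⟨c, hcS, hcne⟩ := exists_fused hna S hxwo (mul_mem hxS hgS)
    have h1 : IsConj (x * w) (c * (x * w) * c⁻¹) := isConj_iff.2 ⟨c, rfl⟩
    rcases hel _ hcS (by rw [Invol.orderOf_conj, hxwo]) with h | h | h
    · rw [h] at h1; exact h1.symm
    · rw [h] at h1; exact hxw.trans h1.symm
    · exact absurd h hcne
  have hall : ∀ a : G, orderOf a = 2 → IsConj x a := by
    intro a ha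
    obtain ⟨T, hT⟩ := (IsPGroup.of_card (n := 1) (by rw [Nat.card_zpowers, ha, pow_one]) :
      IsPGroup 2 ↥(Subgroup.zpowers a)).exists_le_sylow
    obtain ⟨d, hd⟩ := MulAction.exists_smul_eq G T S
    have h : d * a * d⁻¹ ∈ (S : Subgroup G) := by
      rw [← hd]
      exact ⟨a, hT (Subgroup.mem_zpowers a), rfl⟩
    have hxd : IsConj x (d * a * d⁻¹) := by
      rcases hel _ h (by rw [Invol.orderOf_conj, ha]) with h' | h' | h' <;> rw [h']
      · exact hxw
      · exact hxxw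
    exact hxd.trans (isConj_iff.2 ⟨d⁻¹, by group⟩)
  exact fun a b ha hb => (hall a ha).symm.trans (hall b hb)

end CfsgLib.BSW
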